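import Mathlib

/-!
A finite simple ring of characteristic two spanned by a group `T` of units such that every
non-zero element is of "product type" or of "diagonal type" (helper74).
-/

set_option autoImplicit false

namespace H74.ONS

open Matrix

theorem isUnit_of_diag {A T : Type*} [Ring A] [Finite A] [IsSimpleRing A] [Group T] (φ : T →* A)
    (hgen : Subring.closure (Set.range φ) = ⊤) {a : A} (ha : a ≠ 0)
    (h : ∀ x, ∃ y, φ x * a = a * φ y) : IsUnit a := by
  have key : ∀ r : A, ∃ r', r * a = a * r' := by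
    intro r
    have hr : r ∈ Subring.closure (Set.range φ) := hgen ▸ Subring.mem_top r
    induction hr using Subring.closure_induction with
    | mem x hx => obtain ⟨x, rfl⟩ := hx; obtain ⟨y, e⟩ := h x; exact ⟨_, e⟩
    | zero => exact ⟨0, by simp⟩
    | one => exact ⟨1, by simp⟩
    | add x y _ _ hx hy =>
      obtain ⟨x', e⟩ := hx; obtain ⟨y', e'⟩ := hy
      exact ⟨x' + y', by rw [add_mul, mul_add, e, e']⟩
    | neg x _ hx => obtain ⟨x', e⟩ := hx; exact ⟨-x', by rw [neg_mul, mul_neg, e]⟩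
    | mul x y _ _ hx hy =>
      obtain ⟨x', e⟩ := hx; obtain ⟨y', e'⟩ := hy
      exact ⟨x' * y', by rw [mul_assoc, e', ← mul_assoc, e, mul_assoc]⟩
  let I : TwoSidedIdeal A := TwoSidedIdeal.mk' {x | ∃ r, x = a * r} ⟨0, by simp⟩
    (by rintro _ _ ⟨r, rfl⟩ ⟨s, rfl⟩; exact ⟨r + s, by rw [mul_add]⟩)
    (by rintro _ ⟨r, rfl⟩; exact ⟨-r, by rw [mul_neg]⟩)
    (by
      rintro x _ ⟨r, rfl⟩
      obtain ⟨x', e⟩ := key x
      exact ⟨x' * r, by rw [← mul_assoc, e, mul_assoc]⟩)
    (by rintro _ x ⟨r, rfl⟩; exact ⟨r * x, by rw [mul_assoc]⟩)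
  have h1 : (1 : A) ∈ I := IsSimpleRing.one_mem_of_ne_zero_mem I ha
    ((TwoSidedIdeal.mem_mk' ..).mpr ⟨1, by simp⟩)
  obtain ⟨r, hr⟩ := (TwoSidedIdeal.mem_mk' ..).mp h1
  exact IsUnit.of_mul_eq_one r hr.symm

theorem matrix_rank_add_le {F n : Type*} [Field F] [Fintype n] [DecidableEq n]
    (A B : Matrix n n F) : (A + B).rank ≤ A.rank + B.rank := by
  unfold Matrix.rank
  rw [Matrix.mulVecLin_add]
  exact (Submodule.finrank_mono (LinearMap.range_add_le _ _)).trans
    (Submodule.finrank_add_le_finrank_add_finrank _ _)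

theorem k2_matrix {E T : Type*} [Field E] [Finite E] [Group T] [Finite T] {m : ℕ} [NeZero m]
    (h2 : (2 : E) = 0) (φ : T →* Matrix (Fin m) (Fin m) E) (hφ : Function.Injective φ)
    (hT : 16 < Nat.card T) {s s' : T} (hs : s * s = 1) (hs' : s' * s' = 1) (hss : s * s' ≠ s' * s)
    (h : ∀ a : Matrix (Fin m) (Fin m) E, a ≠ 0 → (∀ x y, φ x * a = a * φ y → φ x * a = a) ∨
      (IsUnit a ∧ ∀ x, ∃ y, φ x * a = a * φ y)) : False := by
  classical
  haveI : CharP E 2 := (CharP.charP_iff_prime_eq_zero Nat.prime_two).mpr (by exact_mod_cast h2)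
  have hadd : ∀ a : Matrix (Fin m) (Fin m) E, a + a = 0 := fun a => by
    ext i j; exact CharTwo.add_self_eq_zero _
  have hs1 : s ≠ 1 := by rintro rfl; simp at hss
  have hsq : ∀ t : T, t * t = 1 → (1 + φ t) * (1 + φ t) = 0 := fun t ht => by
    rw [add_mul, mul_add, mul_add, ← map_mul, ht, map_one, one_mul, one_mul, mul_one,
      add_comm (φ t) 1, hadd]
  set n := 1 + φ s with hn
  have hφs : φ s = 1 + n := by rw [hn, ← add_assoc, hadd, zero_add]
  have hn0 : n ≠ 0 := fun e => hs1 (hφ (by rw [hφs, e, add_zero, map_one]))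
  have hnn : n * n = 0 := hsq s hs
  have key : ∀ a, n * a = a * n → n * a ≠ 0 → IsUnit a ∧ ∀ x, ∃ y, φ x * a = a * φ y := by
    intro a h1 h3
    refine (h a (by rintro rfl; simp at h3)).resolve_left fun hP => h3 ?_
    have := hP s s (by rw [hφs, add_mul, mul_add, h1, one_mul, mul_one])
    rwa [hφs, add_mul, one_mul, add_eq_left] at this
  have hm2 : m ≤ 2 := by
    obtain ⟨i, j, hij⟩ : ∃ i j, n i j ≠ 0 := by
      by_contra hc
      push Not at hc
      exact hn0 (Matrix.ext hc)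
    let x0 : Fin m → E := Pi.single j 1
    let f : Fin m → E := Pi.single i 1
    have e1 : n * (vecMulVec x0 (f ᵥ* n) + vecMulVec (n *ᵥ x0) f) = vecMulVec (n *ᵥ x0) (f ᵥ* n) := by
      rw [mul_add, mul_vecMulVec, mul_vecMulVec, mulVec_mulVec, hnn, zero_mulVec, zero_vecMulVec,
        add_zero]
    have e2 : (vecMulVec x0 (f ᵥ* n) + vecMulVec (n *ᵥ x0) f) * n = vecMulVec (n *ᵥ x0) (f ᵥ* n) := by
      rw [add_mul, vecMulVec_mul, vecMulVec_mul, vecMul_vecMul, hnn, vecMul_zero, vecMulVec_zero,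
        zero_add]
    have hu := (key _ (e1.trans e2.symm) (by
      rw [e1]
      intro e
      have := congrFun (congrFun e i) j
      simp [vecMulVec_apply, x0, f, hij] at this)).1
    have := rank_of_isUnit _ hu
    have h3 := (matrix_rank_add_le (vecMulVec x0 (f ᵥ* n)) (vecMulVec (n *ᵥ x0) f)).trans
      (add_le_add (rank_vecMulVec_le _ _) (rank_vecMulVec_le _ _))
    rw [this, Fintype.card_fin] at h3
    exact h3
  have hm0 : m ≠ 0 := NeZero.ne m
  obtain rfl | rfl : m = 1 ∨ m = 2 := by omega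
  · refine hss (hφ ?_)
    rw [map_mul, map_mul]
    ext i j
    simp [mul_apply, Subsingleton.elim i 0, Subsingleton.elim j 0, mul_comm]
  obtain ⟨μ, hμ0, hμ1⟩ : ∃ μ : E, μ ≠ 0 ∧ μ ≠ 1 := by
    by_contra hc
    push Not at hc
    have h3 : Nat.card E ≤ 2 := by
      have := Nat.card_le_card_of_injective (fun x : E => decide (x = 0)) (fun x y e => by
        by_cases hx : x = 0
        · simp [hx] at e; rw [hx, e]
        · simp [hx] at e; rw [hc x hx, hc y e])
      simpa using this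
    have h4 := Nat.card_le_card_of_injective φ hφ
    rw [show Nat.card (Matrix (Fin 2) (Fin 2) E) = Nat.card E ^ 4 by
      simp [Matrix, Nat.card_fun, ← pow_mul]] at h4
    have : Nat.card E ^ 4 ≤ 2 ^ 4 := Nat.pow_le_pow_left h3 4
    omega
  set n' := 1 + φ s' with hn'
  have hφs' : φ s' = 1 + n' := by rw [hn', ← add_assoc, hadd, zero_add]
  have hnn' : n' * n' = 0 := hsq s' hs'
  have nil : ∀ a : Matrix (Fin 2) (Fin 2) E, a * a = 0 →
      a 1 1 = a 0 0 ∧ a 0 0 * a 0 0 = a 0 1 * a 1 0 := by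
    intro a ha
    have e00 := congrFun (congrFun ha 0) 0
    have e11 := congrFun (congrFun ha 1) 1
    simp [mul_apply, Fin.sum_univ_two] at e00 e11
    refine ⟨?_, by linear_combination e00 - a 0 1 * a 1 0 * h2⟩
    have : (a 1 1 - a 0 0) ^ 2 = 0 := by
      linear_combination e11 - e00 + (a 0 0 * a 0 0 - a 0 0 * a 1 1) * h2
    exact sub_eq_zero.mp (pow_eq_zero_iff (two_ne_zero) |>.mp this)
  obtain ⟨a1, a2⟩ := nil n hnn
  obtain ⟨b1, b2⟩ := nil n' hnn'
  set c := n 0 1 * n' 1 0 + n 1 0 * n' 0 1 with hc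
  have hc0 : c ≠ 0 := by
    intro e
    refine hss (hφ ?_)
    rw [map_mul, map_mul, hφs, hφs']
    have : n * n' = n' * n := by
      ext i j
      fin_cases i <;> fin_cases j <;> simp [mul_apply, Fin.sum_univ_two, a1, b1]
      · linear_combination e - n 1 0 * n' 0 1 * h2
      · ring
      · ring
      · linear_combination e - n 0 1 * n' 1 0 * h2
    simp only [add_mul, mul_add, one_mul, mul_one, this]
    abel
  set l := (μ + μ⁻¹) / c with hl
  have hlc : l * c = μ + μ⁻¹ := div_mul_cancel₀ _ hc0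
  have hu2 : (1 + l • n) * (1 + l • n) = 1 := by
    simp only [add_mul, mul_add, one_mul, mul_one, smul_mul_smul_comm, hnn, smul_zero, add_zero,
      add_assoc, hadd]
  obtain ⟨y, hy⟩ := (key (1 + l • n) (by simp [mul_add, add_mul])
    (by simpa [mul_add, hnn] using hn0)).2 s'
  have hy' : φ y = (1 + l • n) * (1 + n') * (1 + l • n) := by
    rw [mul_assoc, ← hφs', hy, ← mul_assoc, hu2, one_mul]
  set Z := φ (s' * y) with hZ
  have hZe : Z = (1 + n') * ((1 + l • n) * (1 + n') * (1 + l • n)) := by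
    rw [hZ, map_mul, hφs', hy']
  set ν := μ ^ 2 with hν
  have hν0 : ν ≠ 0 := pow_ne_zero 2 hμ0
  have hν1 : ν ≠ 1 := fun e => hμ1 (by
    have : (μ - 1) ^ 2 = 0 := by linear_combination e + (1 - μ) * h2
    exact sub_eq_zero.mp (pow_eq_zero_iff (two_ne_zero) |>.mp this))
  have hνν : ν * ν ≠ 1 := fun e => hν1 (by
    have : (ν - 1) ^ 2 = 0 := by linear_combination e + (1 - ν) * h2
    exact sub_eq_zero.mp (pow_eq_zero_iff (two_ne_zero) |>.mp this))
  have hdet1 : ∀ a : Matrix (Fin 2) (Fin 2) E, a * a = 0 → det (1 + a) = 1 := by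
    intro a ha
    obtain ⟨c1, c2⟩ := nil a ha
    rw [det_fin_two]
    simp [c1]
    linear_combination c2 + a 0 0 * h2
  have hdet : det Z = 1 := by
    rw [hZe, det_mul, det_mul, det_mul, hdet1 n' hnn', hdet1 (l • n) (by simp [hnn])]
    simp
  have htr : Z 0 0 + Z 1 1 = ν + ν⁻¹ := by
    have e1 : trace Z = trace (n' * (l • n) * (n' * (l • n))) := by
      have e2 : Z = ((1 + l • n) * (1 + n') * (1 + l • n)) + (n' * (1 + l • n) * (1 + l • n) +
          (n' * n' * (1 + l • n) + (n' * (l • n) * n' + n' * (l • n) * (n' * (l • n))))) := by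
        rw [hZe]; generalize l • n = k; noncomm_ring
      have t0 : trace n' = 0 := by simp [trace, Fin.sum_univ_two, b1, CharTwo.add_self_eq_zero]
      have t1 : trace (1 : Matrix (Fin 2) (Fin 2) E) = 0 := by simpa using h2
      rw [e2, trace_add, trace_add, trace_add, trace_add, trace_mul_cycle, hu2, one_mul, trace_add,
        t0, t1, mul_assoc n' _ (1 + l • n), hu2, mul_one, t0, hnn', zero_mul, trace_zero,
        trace_mul_cycle n', hnn', zero_mul, trace_zero]
      simp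
    have e3 : ν + ν⁻¹ = (l * c) ^ 2 := by
      rw [hlc, hν, ← inv_pow]
      have := mul_inv_cancel₀ hμ0
      linear_combination (-μ * μ⁻¹) * h2
    have e4 : Z 0 0 + Z 1 1 = trace Z := by simp [trace, Fin.sum_univ_two]
    rw [e4, e1, e3, hc]
    simp [trace, Fin.sum_univ_two, mul_apply, a1, b1]
    linear_combination (l ^ 2 * (n' 0 0 * n 0 0 * n' 0 0 * n 0 0 + n' 0 0 * n 0 0 * n' 0 1 * n 1 0 +
      n' 0 0 * n 0 0 * n' 1 0 * n 0 1 + n' 0 0 * n 0 1 * n' 1 0 * n 0 0 +
      n' 0 0 * n 0 1 * n' 0 0 * n 1 0 + n' 0 1 * n 0 0 * n' 1 0 * n 0 0 +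
      n' 0 1 * n 0 0 * n' 0 0 * n 1 0 - n 0 1 * n' 1 0 * n 1 0 * n' 0 1)) * h2
  have hdet' : Z 0 0 * Z 1 1 - Z 0 1 * Z 1 0 = 1 := by rw [← det_fin_two, hdet]
  have hνi := mul_inv_cancel₀ hν0
  have hZv : Z * (Z + ν⁻¹ • 1) = ν • (Z + ν⁻¹ • 1) := by
    ext i j
    fin_cases i <;> fin_cases j <;> simp [mul_apply, Fin.sum_univ_two]
    · linear_combination Z 0 0 * htr - hdet' - hνi + (Z 0 0 * ν⁻¹ - 1) * h2
    · linear_combination Z 0 1 * htr + (Z 0 1 * ν⁻¹) * h2
    · linear_combination Z 1 0 * htr + (Z 1 0 * ν⁻¹) * h2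
    · linear_combination Z 1 1 * htr - hdet' - hνi + (Z 1 1 * ν⁻¹ - 1) * h2
  have hscal : ∀ k : E, Z = k • 1 → k * k = 1 := fun k e => by
    rw [e] at hdet'
    simpa using hdet'
  have hv0 : Z + ν⁻¹ • 1 ≠ 0 := fun e => by
    have := hscal ν⁻¹ (by rw [← add_zero Z, ← hadd (ν⁻¹ • 1), ← add_assoc, e, zero_add])
    rw [← mul_inv, inv_eq_one] at this
    exact hνν this
  rcases h _ hv0 with hP | ⟨hu, -⟩
  · have := hP (s' * y) (s' * y) (by rw [← hZ]; simp [mul_add, add_mul])
    rw [← hZ, hZv] at this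
    have h5 : (ν - 1) • (Z + ν⁻¹ • 1) = 0 := by rw [sub_smul, this, one_smul, sub_self]
    rcases smul_eq_zero.mp h5 with h6 | h6
    · exact hν1 (sub_eq_zero.mp h6)
    · exact hv0 h6
  · refine hνν (hscal ν (hu.mul_right_cancel ?_))
    rw [hZv, smul_mul_assoc, one_mul]

theorem k2 {A T : Type*} [Ring A] [Finite A] [IsSimpleRing A] [Group T] [Finite T]
    (h2 : (2 : A) = 0) (φ : T →* A) (hφ : Function.Injective φ)
    (hgen : Subring.closure (Set.range φ) = ⊤)
    (hT : 16 < Nat.card T) {s s' : T} (hs : s * s = 1) (hs' : s' * s' = 1) (hss : s * s' ≠ s' * s)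
    (h : ∀ a : A, a ≠ 0 → (∀ x y, φ x * a = a * φ y → φ x * a = a) ∨
      (∀ x, ∃ y, φ x * a = a * φ y)) : False := by
  obtain ⟨m, hm, D, _, ⟨e⟩⟩ := IsSimpleRing.exists_ringEquiv_matrix_divisionRing A
  haveI : Finite (Matrix (Fin m) (Fin m) D) := Finite.of_equiv A e.toEquiv
  haveI : Finite D := Finite.of_surjective (fun a : Matrix (Fin m) (Fin m) D => a 0 0)
    fun d => ⟨Matrix.of fun _ _ => d, rfl⟩
  letI : Field D := littleWedderburn D
  refine k2_matrix (E := D) (m := m) ?_ (e.toMonoidHom.comp φ) (e.injective.comp hφ) hT hs hs' hss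
    fun a ha => ?_
  · have : (2 : Matrix (Fin m) (Fin m) D) = 0 := by rw [← map_ofNat e 2, h2, map_zero]
    have h3 := congrFun (congrFun this 0) 0
    simpa [Matrix.ofNat_apply] using h3
  · obtain ⟨b, rfl⟩ := e.surjective a
    have hb : b ≠ 0 := fun e' => ha (by rw [e', map_zero])
    rcases h b hb with h1 | h1
    · left
      intro x y hxy
      have : φ x * b = b * φ y := e.injective (by rw [map_mul, map_mul]; exact hxy)
      have h3 := congrArg e (h1 x y this)
      rwa [map_mul] at h3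
    · right
      refine ⟨(isUnit_of_diag φ hgen hb h1).map e, fun x => ?_⟩
      obtain ⟨y, hy⟩ := h1 x
      have h3 := congrArg e hy
      rw [map_mul, map_mul] at h3
      exact ⟨y, h3⟩

end H74.ONS
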